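import Groth.Agent.Fcompl.H552.SpecKill

/-!
# Morphisms `M^Δ ⟶ N^Δ` of systems of modules on the formal spectrum

For `N` complete: `Hom_A(M, N)` is in bijection with the morphisms of systems (`main_bijective`).
`quo J N n = N / J^(n+1) N`; `existsUnique_hom`: morphisms `i_n^* M~ ⟶ i_n^* N~` are the maps `M ⟶ N/J^(n+1)N`.
-/

set_option autoImplicit false
universe u

open CategoryTheory AlgebraicGeometry

namespace Groth.Agent.Fcompl.H552.HomSpec

open Groth.Agent.Fcompl.H552.SpecKill

variable {A : Type u} [CommRing A] (J : Ideal A)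

/-- `N / J^(n+1) N`. -/
noncomputable abbrev quo (N : ModuleCat.{u} A) (n : ℕ) : ModuleCat.{u} A :=
  ModuleCat.of A (N ⧸ (J ^ (n + 1) • ⊤ : Submodule A N))

noncomputable abbrev quoπ (N : ModuleCat.{u} A) (n : ℕ) : N ⟶ quo J N n :=
  ModuleCat.ofHom (Submodule.mkQ (J ^ (n + 1) • ⊤ : Submodule A N))

noncomputable abbrev quoT (N : ModuleCat.{u} A) (n : ℕ) : quo J N (n + 1) ⟶ quo J N n :=
  ModuleCat.ofHom (Submodule.factorPow J N (Nat.le_succ (n + 1)))

theorem quoπ_quoT (N : ModuleCat.{u} A) (n : ℕ) : quoπ J N (n + 1) ≫ quoT J N n = quoπ J N n := rfl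

/-- restriction to level `n` -/
noncomputable abbrev restr (n : ℕ) : (Spec (CommRingCat.of A)).Modules ⥤
    ((FSch.completionAlong _ (FSch.idealSpec A J)).X n).Modules :=
  Scheme.Modules.pullback (FSch.completionToX _ (FSch.idealSpec A J) n)

theorem killed_quo (N : ModuleCat.{u} A) (n : ℕ) : ClSub.KilledByIdeal ((FSch.idealSpec A J) ^ (n + 1))
    ((tilde.functor (CommRingCat.of A)).obj (quo J N n)) := by
  apply killedByIdeal_tilde
  intro a ha q
  obtain ⟨x, rfl⟩ := Submodule.mkQ_surjective _ q
  rw [← map_smul]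
  exact (Submodule.Quotient.mk_eq_zero _).mpr (Submodule.smul_mem_smul ha trivial)

theorem isIso_quoπ (N : ModuleCat.{u} A) (n : ℕ) :
    IsIso ((restr J n).map ((tilde.functor (CommRingCat.of A)).map (quoπ J N n))) := by
  apply isIso_pullback_tilde_map
  · exact Submodule.mkQ_surjective _
  · intro x hx
    exact (Submodule.Quotient.mk_eq_zero _).mp hx

/-- Uniqueness and existence of the algebraic description of a morphism at level `n`. -/
theorem existsUnique_hom (M N : ModuleCat.{u} A) (n : ℕ)
    (ψ : (restr J n).obj ((tilde.functor (CommRingCat.of A)).obj M) ⟶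
      (restr J n).obj ((tilde.functor (CommRingCat.of A)).obj N)) :
    ∃! u : M ⟶ quo J N n, (restr J n).map ((tilde.functor (CommRingCat.of A)).map u) =
      ψ ≫ (restr J n).map ((tilde.functor (CommRingCat.of A)).map (quoπ J N n)) := by
  have hb := pullback_map_bijective ((FSch.idealSpec A J) ^ (n + 1))
    (F := (tilde.functor (CommRingCat.of A)).obj M) (killed_quo J N n)
  obtain ⟨f, hf⟩ := hb.2 (ψ ≫ (restr J n).map ((tilde.functor (CommRingCat.of A)).map (quoπ J N n)))
  refine ⟨(tilde.fullyFaithfulFunctor (R := CommRingCat.of A)).preimage f, ?_, ?_⟩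
  · refine Eq.trans ?_ hf
    exact congrArg (restr J n).map
      ((tilde.fullyFaithfulFunctor (R := CommRingCat.of A)).map_preimage f)
  · intro u hu
    apply (tilde.fullyFaithfulFunctor (R := CommRingCat.of A)).map_injective
    rw [(tilde.fullyFaithfulFunctor (R := CommRingCat.of A)).map_preimage f]
    exact hb.1 (hu.trans hf.symm)

theorem abstract_compat {C D D' : Type*} [Category C] [Category D] [Category D'] (R₁ : C ⥤ D')
    (R₀ : C ⥤ D) (P : D' ⥤ D) (c : R₁ ⋙ P ≅ R₀) {M N Q₁ Q₀ : C} (v : M ⟶ Q₁) (π : N ⟶ Q₁) (t : Q₁ ⟶ Q₀)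
    (ψ₁ : R₁.obj M ⟶ R₁.obj N) (ψ₀ : R₀.obj M ⟶ R₀.obj N)
    (hψ : P.map ψ₁ ≫ c.hom.app N = c.hom.app M ≫ ψ₀) (hv : R₁.map v = ψ₁ ≫ R₁.map π) :
    R₀.map (v ≫ t) = ψ₀ ≫ R₀.map (π ≫ t) := by
  have h1 : c.hom.app M ≫ R₀.map v = c.hom.app M ≫ ψ₀ ≫ R₀.map π := by
    have e1 := c.hom.naturality v
    have e2 := c.hom.naturality π
    simp only [Functor.comp_map] at e1 e2
    rw [← e1, hv, Functor.map_comp, Category.assoc, e2, ← Category.assoc, hψ, Category.assoc]
  have h2 : R₀.map v = ψ₀ ≫ R₀.map π := (cancel_epi (c.hom.app M)).mp h1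
  rw [Functor.map_comp, Functor.map_comp, h2, Category.assoc]

/-- The compatibility of the algebraic descriptions at levels `n + 1` and `n`. -/
theorem compat (M N : ModuleCat.{u} A)
    (ψ : FSch.complMod (FSch.idealSpec A J) ((tilde.functor (CommRingCat.of A)).obj M) ⟶
      FSch.complMod (FSch.idealSpec A J) ((tilde.functor (CommRingCat.of A)).obj N)) (n : ℕ)
    (v : M ⟶ quo J N (n + 1))
    (hv : (restr J (n + 1)).map ((tilde.functor (CommRingCat.of A)).map v) =
      ψ.app (n + 1) ≫ (restr J (n + 1)).map ((tilde.functor (CommRingCat.of A)).map (quoπ J N (n + 1)))) :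
    (restr J n).map ((tilde.functor (CommRingCat.of A)).map (v ≫ quoT J N n)) =
      ψ.app n ≫ (restr J n).map ((tilde.functor (CommRingCat.of A)).map (quoπ J N n)) := by
  have h := abstract_compat (restr J (n + 1)) (restr J n)
    (Scheme.Modules.pullback ((FSch.completionAlong _ (FSch.idealSpec A J)).ι n))
    (FSch.complTransIso (FSch.idealSpec A J) n)
    ((tilde.functor (CommRingCat.of A)).map v)
    ((tilde.functor (CommRingCat.of A)).map (quoπ J N (n + 1)))
    ((tilde.functor (CommRingCat.of A)).map (quoT J N n)) (ψ.app (n + 1)) (ψ.app n) (ψ.comm n) hv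
  rw [← Functor.map_comp, ← Functor.map_comp, quoπ_quoT] at h
  exact h

theorem main_bijective (M N : ModuleCat.{u} A) [IsAdicComplete J N] :
    Function.Bijective (fun u : M ⟶ N ↦
      FSch.complModMap (FSch.idealSpec A J) ((tilde.functor (CommRingCat.of A)).map u)) := by
  constructor
  · intro u v huv
    have h1 : ∀ n, u ≫ quoπ J N n = v ≫ quoπ J N n := by
      intro n
      have h2 : (restr J n).map ((tilde.functor (CommRingCat.of A)).map u) =
          (restr J n).map ((tilde.functor (CommRingCat.of A)).map v) :=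
        congrArg (fun φ => FSch.ModSys.Hom.app φ n) huv
      apply (existsUnique_hom J M N n ((restr J n).map
        ((tilde.functor (CommRingCat.of A)).map u))).unique
      · rw [Functor.map_comp, Functor.map_comp]
      · rw [Functor.map_comp, Functor.map_comp, h2]
    ext x
    rw [← sub_eq_zero]
    apply IsHausdorff.haus (I := J) inferInstance
    intro n
    have h3 : (Submodule.mkQ (J ^ (n + 1) • ⊤ : Submodule A N)) (u.hom x) =
        (Submodule.mkQ (J ^ (n + 1) • ⊤ : Submodule A N)) (v.hom x) := congr($(h1 n) x)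
    rw [← sub_eq_zero, ← map_sub] at h3
    have h4 := (Submodule.Quotient.mk_eq_zero _).mp h3
    rw [SModEq.zero]
    exact Submodule.pow_smul_top_le J N (Nat.le_succ n) h4
  · intro ψ
    choose u hu huniq using fun n => existsUnique_hom J M N n (ψ.app n)
    have hc : ∀ n, u (n + 1) ≫ quoT J N n = u n := fun n => huniq n _ (compat J M N ψ n _ (hu (n + 1)))
    have ha : StrictMono (fun n : ℕ => n + 1) := fun _ _ h => Nat.succ_lt_succ h
    have hf : ∀ {m : ℕ}, Submodule.factorPow J N (ha.monotone m.le_succ) ∘ₗ (u (m + 1)).hom = (u m).hom := by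
      intro m
      exact congrArg ModuleCat.Hom.hom (hc m)
    let L : M →ₗ[A] N := IsAdicComplete.StrictMono.lift J ha (fun n => (u n).hom) hf
    have hL : ∀ n, ModuleCat.ofHom L ≫ quoπ J N n = u n := by
      intro n
      ext x
      exact IsAdicComplete.StrictMono.mk_lift J ha (fun n => (u n).hom) hf x
    refine ⟨ModuleCat.ofHom L, ?_⟩
    apply FSch.ModSys.Hom.ext
    funext n
    have := isIso_quoπ J N n
    have h5 : (restr J n).map ((tilde.functor (CommRingCat.of A)).map (ModuleCat.ofHom L)) ≫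
        (restr J n).map ((tilde.functor (CommRingCat.of A)).map (quoπ J N n)) =
        ψ.app n ≫ (restr J n).map ((tilde.functor (CommRingCat.of A)).map (quoπ J N n)) := by
      rw [← Functor.map_comp, ← Functor.map_comp, hL]
      exact hu n
    exact (cancel_mono ((restr J n).map ((tilde.functor (CommRingCat.of A)).map (quoπ J N n)))).mp h5

end Groth.Agent.Fcompl.H552.HomSpec
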