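import Groth.Prelude.Def_FSch3

/-!
# The ideal sheaf `FSch.idealSpec A J` on `Spec A` and its powers, on affine opens
-/

set_option autoImplicit false
universe u

open CategoryTheory CategoryTheory.Limits AlgebraicGeometry Opposite

namespace Groth.Agent.Fcompl.H552.IdealSpec

variable (A : Type u) [CommRing A] (J : Ideal A)

/-- The whole `Spec A` as an affine open. -/
noncomputable abbrev topAff : (Spec (CommRingCat.of A)).affineOpens := ⟨⊤, isAffineOpen_top _⟩

/-- On global sections, `idealSpec A J` is `J`. -/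
theorem ideal_idealSpec_top : (FSch.idealSpec A J).ideal (topAff A) =
    J.map (Scheme.ΓSpecIso (CommRingCat.of A)).inv.hom := by
  rw [FSch.idealSpec, Scheme.Hom.ker_apply]
  have hnat := Scheme.ΓSpecIso_naturality (CommRingCat.ofHom (Ideal.Quotient.mk J))
  apply le_antisymm
  · intro x hx
    have hx' : (Spec.map (CommRingCat.ofHom (Ideal.Quotient.mk J))).appTop.hom x = 0 := hx
    have h1 := congr($hnat x)
    have h2 : (Ideal.Quotient.mk J) ((Scheme.ΓSpecIso (CommRingCat.of A)).hom x) = 0 := by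
      refine h1.symm.trans ?_
      change (Scheme.ΓSpecIso _).hom ((Spec.map (CommRingCat.ofHom (Ideal.Quotient.mk J))).appTop.hom x) = 0
      rw [hx', map_zero]
    rw [Ideal.Quotient.eq_zero_iff_mem] at h2
    have h3 := Ideal.mem_map_of_mem (Scheme.ΓSpecIso (CommRingCat.of A)).inv.hom h2
    have h4 : (Scheme.ΓSpecIso (CommRingCat.of A)).inv.hom
        ((Scheme.ΓSpecIso (CommRingCat.of A)).hom x) = x :=
      congr($((Scheme.ΓSpecIso (CommRingCat.of A)).hom_inv_id) x)
    rwa [h4] at h3
  · rw [Ideal.map_le_iff_le_comap]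
    intro a ha
    change (Spec.map (CommRingCat.ofHom (Ideal.Quotient.mk J))).appTop.hom
      ((Scheme.ΓSpecIso (CommRingCat.of A)).inv.hom a) = 0
    have h1 := congr($hnat ((Scheme.ΓSpecIso (CommRingCat.of A)).inv a))
    have h4 : (Scheme.ΓSpecIso (CommRingCat.of A)).hom
        ((Scheme.ΓSpecIso (CommRingCat.of A)).inv a) = a :=
      congr($((Scheme.ΓSpecIso (CommRingCat.of A)).inv_hom_id) a)
    have h5 : (Scheme.ΓSpecIso _).hom ((Spec.map (CommRingCat.ofHom (Ideal.Quotient.mk J))).appTop
        ((Scheme.ΓSpecIso (CommRingCat.of A)).inv a)) = 0 := by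
      refine h1.trans ?_
      change Ideal.Quotient.mk J ((Scheme.ΓSpecIso (CommRingCat.of A)).hom
        ((Scheme.ΓSpecIso (CommRingCat.of A)).inv a)) = 0
      rw [h4]
      exact Ideal.Quotient.eq_zero_iff_mem.mpr ha
    have hinj : Function.Injective (Scheme.ΓSpecIso (CommRingCat.of (A ⧸ J))).hom :=
      (ConcreteCategory.bijective_of_isIso (Scheme.ΓSpecIso (CommRingCat.of (A ⧸ J))).hom).1
    apply hinj
    rw [map_zero]
    exact h5

theorem ideal_idealSpec_pow_top (n : ℕ) : ((FSch.idealSpec A J) ^ n).ideal (topAff A) =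
    (J ^ n).map (Scheme.ΓSpecIso (CommRingCat.of A)).inv.hom := by
  rw [Scheme.IdealSheafData.ideal_pow, Pi.pow_apply, ideal_idealSpec_top, Ideal.map_pow]

/-- The ring map `A → Γ(Spec A, U)`. -/
noncomputable def secMap (U : (Spec (CommRingCat.of A)).Opens) :
    CommRingCat.of A ⟶ Γ(Spec (CommRingCat.of A), U) :=
  (Scheme.ΓSpecIso (CommRingCat.of A)).inv ≫ (Spec (CommRingCat.of A)).presheaf.map (homOfLE le_top).op

/-- The powers of `idealSpec A J` on affine opens. -/
theorem ideal_idealSpec_pow (n : ℕ) (U : (Spec (CommRingCat.of A)).affineOpens) :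
    ((FSch.idealSpec A J) ^ n).ideal U = (J ^ n).map (secMap A U.1).hom := by
  have hU : U ≤ topAff A := fun _ _ => trivial
  have h := ((FSch.idealSpec A J) ^ n).map_ideal (U := U) (V := topAff A) hU
  rw [← h, ideal_idealSpec_pow_top, Ideal.map_map]
  rfl

theorem secMap_mem (n : ℕ) (U : (Spec (CommRingCat.of A)).affineOpens) {a : A} (ha : a ∈ J ^ n) :
    (secMap A U.1) a ∈ ((FSch.idealSpec A J) ^ n).ideal U := by
  rw [ideal_idealSpec_pow]
  exact Ideal.mem_map_of_mem (secMap A U.1).hom ha

end Groth.Agent.Fcompl.H552.IdealSpec
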