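import Groth.Agent.Fcompl.H552.IdealSpec
import Groth.Agent.FormalB.TrKQuot

/-!
# Modules on `Spec A` killed by a power of `idealSpec A J`, and the restriction of `N~` to `V(J^n)`
-/

set_option autoImplicit false
universe u

open CategoryTheory CategoryTheory.Limits AlgebraicGeometry Opposite

namespace Groth.Agent.Fcompl.H552.SpecKill

open Groth.Agent.Fcompl.H552.IdealSpec Groth.Agent.FormalB.TrKQuot

section General

variable {X : Scheme.{u}} (K : X.IdealSheafData)

/-- For `G` killed by `K`, restriction to `V(K)` is bijective on `Hom(F, G)`. -/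
theorem pullback_map_bijective {F G : X.Modules} (hG : ClSub.KilledByIdeal K G) :
    Function.Bijective (fun f : F ⟶ G => (Scheme.Modules.pullback K.subschemeι).map f) := by
  have hiso : IsIso ((Scheme.Modules.pullbackPushforwardAdjunction K.subschemeι).unit.app G) :=
    isIso_kπ K hG
  have h : ∀ f : F ⟶ G, ((Scheme.Modules.pullbackPushforwardAdjunction K.subschemeι).homEquiv _ _)
      ((Scheme.Modules.pullback K.subschemeι).map f) =
        f ≫ (Scheme.Modules.pullbackPushforwardAdjunction K.subschemeι).unit.app G := by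
    intro f
    rw [Adjunction.homEquiv_unit]
    exact ((Scheme.Modules.pullbackPushforwardAdjunction K.subschemeι).unit.naturality f).symm
  constructor
  · intro f g hfg
    have h1 : f ≫ (Scheme.Modules.pullbackPushforwardAdjunction K.subschemeι).unit.app G =
        g ≫ (Scheme.Modules.pullbackPushforwardAdjunction K.subschemeι).unit.app G := by
      rw [← h f, ← h g]
      exact congrArg _ hfg
    exact (cancel_mono ((Scheme.Modules.pullbackPushforwardAdjunction K.subschemeι).unit.app G)).mp h1
  · intro φ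
    refine ⟨((Scheme.Modules.pullbackPushforwardAdjunction K.subschemeι).homEquiv _ _) φ ≫
      inv ((Scheme.Modules.pullbackPushforwardAdjunction K.subschemeι).unit.app G), ?_⟩
    apply ((Scheme.Modules.pullbackPushforwardAdjunction K.subschemeι).homEquiv _ _).injective
    refine (h _).trans ?_
    rw [Category.assoc]
    erw [IsIso.inv_hom_id]
    exact Category.comp_id _

/-- If `p : F ⟶ G` is an epimorphism through which the unit `F ⟶ i_* i^* F` factors then `i^* p` is an
isomorphism. -/
theorem isIso_pullback_map {F G : X.Modules} (p : F ⟶ G) [Epi p]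
    (v : G ⟶ (Scheme.Modules.pushforward K.subschemeι).obj ((Scheme.Modules.pullback K.subschemeι).obj F))
    (hv : p ≫ v = (Scheme.Modules.pullbackPushforwardAdjunction K.subschemeι).unit.app F) :
    IsIso ((Scheme.Modules.pullback K.subschemeι).map p) := by
  have : (Scheme.Modules.pullback K.subschemeι).IsLeftAdjoint :=
    (Scheme.Modules.pullbackPushforwardAdjunction K.subschemeι).isLeftAdjoint
  have hepi : Epi ((Scheme.Modules.pullback K.subschemeι).map p) := inferInstance
  have hr : (Scheme.Modules.pullback K.subschemeι).map p ≫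
      ((Scheme.Modules.pullbackPushforwardAdjunction K.subschemeι).homEquiv _ _).symm v = 𝟙 _ := by
    rw [← Adjunction.homEquiv_naturality_left_symm, hv]
    apply ((Scheme.Modules.pullbackPushforwardAdjunction K.subschemeι).homEquiv _ _).injective
    rw [Equiv.apply_symm_apply, Adjunction.homEquiv_id]
  have hmono : Mono ((Scheme.Modules.pullback K.subschemeι).map p) := by
    have : SplitMono ((Scheme.Modules.pullback K.subschemeι).map p) := ⟨_, hr⟩
    exact this.mono
  exact isIso_of_mono_of_epi _

end General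

variable {A : Type u} [CommRing A] (J : Ideal A)

/-- Morphisms out of `Q~` are determined on global sections. -/
theorem hom_eq_zero_of_top {Q : ModuleCat.{u} A} {G : (Spec (CommRingCat.of A)).Modules}
    (f : (tilde.functor (CommRingCat.of A)).obj Q ⟶ G)
    (h : ∀ q : Q, f.app ⊤ ((tilde.toOpen (R := CommRingCat.of A) Q ⊤).hom q) = 0) : f = 0 := by
  apply ((tilde.adjunction (R := CommRingCat.of A)).homEquiv Q G).injective
  rw [Adjunction.homEquiv_unit, Adjunction.homEquiv_unit]
  ext q
  refine (h q).trans ?_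
  rfl

variable (A) in
/-- The global function on `Spec A` defined by `a`. -/
noncomputable def glob (a : A) : Coh.Γtop (Spec (CommRingCat.of A)) :=
  (Scheme.ΓSpecIso (CommRingCat.of A)).inv a

theorem smulModΓ_glob_app (F : (Spec (CommRingCat.of A)).Modules) (a : A)
    (U : (Spec (CommRingCat.of A)).Opens) (m : Γ(F, U)) :
    (Formal.smulModΓ F (glob A a)).app U m = secMap A U a • m :=
  Groth.Agent.FormalB.ModPow.smulModΓ_app F (glob A a) U m

/-- Criterion to be killed by `(idealSpec A J)^n`. -/
theorem killedByIdeal_of_smulModΓ (n : ℕ) (F : (Spec (CommRingCat.of A)).Modules)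
    (key : ∀ a ∈ J ^ n, Formal.smulModΓ F (glob A a) = 0) :
    ClSub.KilledByIdeal ((FSch.idealSpec A J) ^ n) F := by
  rw [Groth.Agent.FormalB.KQuot.killedByIdeal_iff]
  intro U a ha m
  rw [ideal_idealSpec_pow] at ha
  refine Submodule.span_induction (p := fun a _ => a • m = 0) ?_ ?_ ?_ ?_ ha
  · rintro _ ⟨r, hr, rfl⟩
    refine (smulModΓ_glob_app F r U.1 m).symm.trans ?_
    rw [key r hr]
    rfl
  · exact zero_smul _ m
  · intro x y _ _ hx hy
    rw [add_smul, hx, hy, add_zero]
  · intro x y _ hy
    rw [smul_eq_mul, mul_smul, hy, smul_zero]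

/-- If `J^n` kills `Q` then the sheaf `Q~` is killed by `(idealSpec A J)^n`. -/
theorem killedByIdeal_tilde (n : ℕ) (Q : ModuleCat.{u} A) (hQ : ∀ a ∈ J ^ n, ∀ q : Q, a • q = 0) :
    ClSub.KilledByIdeal ((FSch.idealSpec A J) ^ n) ((tilde.functor (CommRingCat.of A)).obj Q) := by
  apply killedByIdeal_of_smulModΓ
  intro a ha
  apply hom_eq_zero_of_top
  intro q
  refine (smulModΓ_glob_app _ a ⊤ _).trans ?_
  have h1 := (tilde.toOpen (R := CommRingCat.of A) Q ⊤).hom.map_smul a q
  rw [hQ a ha q, map_zero] at h1
  exact h1.symm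

/-- If `F` is killed by `(idealSpec A J)^n` then `J^n` kills its global sections. -/
theorem smul_Γ_eq_zero (n : ℕ) {F : (Spec (CommRingCat.of A)).Modules}
    (hF : ClSub.KilledByIdeal ((FSch.idealSpec A J) ^ n) F) {a : A} (ha : a ∈ J ^ n)
    (m : (moduleSpecΓFunctor (R := CommRingCat.of A)).obj F) : a • m = 0 :=
  hF (topAff A) (secMap A ⊤ a) (secMap_mem A J n (topAff A) ha) m

theorem exists_factor {N Q P : ModuleCat.{u} A} (p : N ⟶ Q) (hp : Function.Surjective p) (w : N ⟶ P)
    (hw : ∀ x : N, p x = 0 → w x = 0) : ∃ v : Q ⟶ P, p ≫ v = w := by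
  let e := p.hom.quotKerEquivOfSurjective hp
  have hle : LinearMap.ker p.hom ≤ LinearMap.ker w.hom := fun x hx => hw x hx
  refine ⟨ModuleCat.ofHom (((LinearMap.ker p.hom).liftQ w.hom hle) ∘ₗ e.symm.toLinearMap), ?_⟩
  ext x
  have h1 : e.symm (p.hom x) = (LinearMap.ker p.hom).mkQ x := by
    rw [LinearEquiv.symm_apply_eq]
    rfl
  change ((LinearMap.ker p.hom).liftQ w.hom hle) (e.symm (p.hom x)) = w.hom x
  rw [h1]
  rfl

theorem map_eq_zero_of_mem {N P : ModuleCat.{u} A} (I : Ideal A) (w : N ⟶ P)
    (hP : ∀ a ∈ I, ∀ m : P, a • m = 0) (x : N) (hx : x ∈ (I • ⊤ : Submodule A N)) : w x = 0 := by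
  refine Submodule.smul_induction_on hx (fun a ha m _ => ?_) (fun x y hx hy => ?_)
  · exact (w.hom.map_smul a m).trans (hP a ha _)
  · rw [map_add, hx, hy, add_zero]

/-- Let `p : N ⟶ Q` be a surjection of `A`-modules with kernel contained in `J^n N`.  The restriction of
`N~ ⟶ Q~` to `V(J^n)` is an isomorphism. -/
theorem isIso_pullback_tilde_map (n : ℕ) {N Q : ModuleCat.{u} A} (p : N ⟶ Q)
    (hp : Function.Surjective p) (hker : ∀ x : N, p x = 0 → x ∈ (J ^ n • ⊤ : Submodule A N)) :
    IsIso ((Scheme.Modules.pullback ((FSch.idealSpec A J) ^ n).subschemeι).map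
      ((tilde.functor (CommRingCat.of A)).map p)) := by
  have hleft : (tilde.functor (CommRingCat.of A)).IsLeftAdjoint :=
    (tilde.adjunction (R := CommRingCat.of A)).isLeftAdjoint
  have hpe : Epi p := (ModuleCat.epi_iff_surjective p).mpr hp
  have hepi : Epi ((tilde.functor (CommRingCat.of A)).map p) := inferInstance
  let K := (FSch.idealSpec A J) ^ n
  let F := (tilde.functor (CommRingCat.of A)).obj N
  let G : (Spec (CommRingCat.of A)).Modules :=
    (Scheme.Modules.pushforward K.subschemeι).obj ((Scheme.Modules.pullback K.subschemeι).obj F)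
  have hG : ClSub.KilledByIdeal K G := killed_pushforward K _
  let w : N ⟶ (moduleSpecΓFunctor (R := CommRingCat.of A)).obj G :=
    ((tilde.adjunction (R := CommRingCat.of A)).homEquiv N G)
      ((Scheme.Modules.pullbackPushforwardAdjunction K.subschemeι).unit.app F)
  obtain ⟨v, hv⟩ : ∃ v : Q ⟶ (moduleSpecΓFunctor (R := CommRingCat.of A)).obj G, p ≫ v = w :=
    exists_factor p hp w (fun x hx => map_eq_zero_of_mem (J ^ n) w
      (fun a ha m => smul_Γ_eq_zero J n hG ha m) x (hker x hx))
  refine isIso_pullback_map K ((tilde.functor (CommRingCat.of A)).map p)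
    (((tilde.adjunction (R := CommRingCat.of A)).homEquiv Q G).symm v) ?_
  rw [← Adjunction.homEquiv_naturality_left_symm, hv]
  exact Equiv.symm_apply_apply _ _

end Groth.Agent.Fcompl.H552.SpecKill
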